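import Cfsg.Agent.Lib.Char.Integral
import Cfsg.Agent.Lib.Char.Degree
import Cfsg.Agent.Lib.Char.Clifford
import Mathlib.GroupTheory.GroupAction.Quotient
import Mathlib.GroupTheory.Sylow

/-!
# A special element for a character of 2-defect zero and a twisting of a 2-group
-/

set_option autoImplicit false
set_option linter.unusedSectionVars false

namespace Cfsg.Agent.Lib.GowReal

open Cfsg Cfsg.Agent.Lib.Char
open scoped ComplexConjugate

universe u

variable {G : Type u} [Group G] [Finite G] (N : Subgroup G) [hN : N.Normal]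

/-- An odd natural number is not twice an algebraic integer times one. -/
theorem not_isIntegral_odd_half {k : ℕ} (hk : Odd k) : ¬ IsIntegral ℤ ((k : ℂ) / 2) := by
  intro h
  obtain ⟨z, hz⟩ := exists_int_of_isIntegral (q := (k : ℚ) / 2) (by push_cast; exact h)
  have h2 : (k : ℤ) = z * 2 := by
    have : ((k : ℤ) : ℚ) = ((z * 2 : ℤ) : ℚ) := by push_cast; rw [← hz]; ring
    exact_mod_cast this
  obtain ⟨a, rfl⟩ := hk
  omega

theorem isIntegral_natCast (k : ℕ) : IsIntegral ℤ (k : ℂ) := by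
  have := isIntegral_algebraMap (R := ℤ) (A := ℂ) (x := (k : ℤ))
  simpa using this

/-- The group of pairs acting on `φ` as the identity or as inversion. -/
def twistGroup (φ : N → ℂ) : Subgroup (G × ℤˣ) where
  carrier := {h | ∀ n : N, φ (MulAut.conjNormal h.1 n) = φ (n ^ (h.2 : ℤ))}
  one_mem' := fun n => by simp
  mul_mem' := by
    rintro ⟨a, u⟩ ⟨b, v⟩ ha hb n
    show φ (MulAut.conjNormal (a * b) n) = φ (n ^ ((u * v : ℤˣ) : ℤ))
    rw [map_mul, MulAut.mul_apply, ha, ← map_zpow, hb, ← zpow_mul, Units.val_mul]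
  inv_mem' := by
    rintro ⟨a, u⟩ ha n
    show φ (MulAut.conjNormal a⁻¹ n) = φ (n ^ ((u⁻¹ : ℤˣ) : ℤ))
    have h := ha ((MulAut.conjNormal a⁻¹ n) ^ (u : ℤ))
    rw [map_zpow, ← MulAut.mul_apply, ← map_mul, mul_inv_cancel, map_one, MulAut.one_apply,
      ← zpow_mul, ← Units.val_mul, ← sq, Int.units_sq, Units.val_one, zpow_one] at h
    rw [Int.units_inv_eq_self]
    exact h.symm

theorem mem_twistGroup {φ : N → ℂ} {h : G × ℤˣ} :
    h ∈ twistGroup N φ ↔ ∀ n : N, φ (MulAut.conjNormal h.1 n) = φ (n ^ (h.2 : ℤ)) := Iff.rfl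

instance (φ : N → ℂ) : MulAction (twistGroup N φ) N where
  smul h n := MulAut.conjNormal h.1.1 (n ^ (h.1.2 : ℤ))
  one_smul n := by
    show MulAut.conjNormal (1 : G) (n ^ ((1 : ℤˣ) : ℤ)) = n
    simp
  mul_smul a b n := by
    show MulAut.conjNormal (a.1.1 * b.1.1) (n ^ ((a.1.2 * b.1.2 : ℤˣ) : ℤ)) =
      MulAut.conjNormal a.1.1 ((MulAut.conjNormal b.1.1 (n ^ (b.1.2 : ℤ))) ^ (a.1.2 : ℤ))
    rw [map_mul, MulAut.mul_apply, ← map_zpow (MulAut.conjNormal b.1.1), ← zpow_mul, Units.val_mul,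
      mul_comm]

theorem smul_def {φ : N → ℂ} (h : twistGroup N φ) (n : N) :
    h • n = MulAut.conjNormal h.1.1 (n ^ (h.1.2 : ℤ)) := rfl

theorem apply_smul {φ : N → ℂ} (h : twistGroup N φ) (n : N) : φ (h • n) = φ n := by
  rw [smul_def, h.2, ← zpow_mul, ← Units.val_mul, ← sq, Int.units_sq, Units.val_one, zpow_one]

variable {N}

/-- The data attached to a character of 2-defect zero. -/
theorem exists_data (h2 : IsPGroup 2 (G ⧸ N)) (φ : IrrCharacter N)
    (hdef : 2 ^ (Nat.card N).factorization 2 ∣ charDegree (φ : N → ℂ))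
    (hg : ∃ g : G, ∀ n : N, (φ : N → ℂ) (MulAut.conjNormal g n) = (φ : N → ℂ) n⁻¹) :
    ∃ (y : N) (Q : Subgroup G) (x : G), Q ≤ inertia N (φ : N → ℂ) ∧
      (∀ t ∈ inertia N (φ : N → ℂ), ∃ n : N, ∃ q ∈ Q, t = n * q) ∧
      N ⊓ Q = ⊥ ∧ IsPGroup 2 Q ∧ (∀ q ∈ Q, MulAut.conjNormal q y = y) ∧
      MulAut.conjNormal x y = y⁻¹ ∧ (∀ q ∈ Q, x * q * x⁻¹ ∈ Q) ∧ x * x ∈ Q ∧
      (∀ n : N, (φ : N → ℂ) (MulAut.conjNormal x n) = (φ : N → ℂ) n⁻¹) ∧
      ¬ IsIntegral ℤ ((φ : N → ℂ) y⁻¹ / 2) := by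
  classical
  haveI := Fintype.ofFinite N
  haveI : Fact (Nat.Prime 2) := ⟨Nat.prime_two⟩
  set f : N → ℂ := (φ : N → ℂ) with hf
  have hχ : IsIrrCharacter N f := φ.2
  have hc := isCharacter_of_isIrr hχ
  set H := twistGroup N f
  -- the image of N
  let inN : N →* H :=
    { toFun := fun n => ⟨((n : G), 1), fun m => by
        have := isClassFunction_of_isIrr hχ m n
        simp only [Units.val_one, zpow_one]
        exact (congrArg f (Subtype.ext (by simp [MulAut.conjNormal_apply]))).trans this⟩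
      map_one' := Subtype.ext rfl
      map_mul' := fun a b => Subtype.ext (Prod.ext rfl (one_mul 1).symm) }
  have inN_inj : Function.Injective inN := fun a b h =>
    Subtype.ext (congrArg (fun z : H => z.1.1) h)
  have inN_smul : ∀ (a b : N), inN a • b = a * b * a⁻¹ := fun a b => by
    rw [smul_def]
    apply Subtype.ext
    simp [inN, MulAut.conjNormal_apply]
  -- orders
  obtain ⟨k, hk⟩ := IsPGroup.iff_card.1 h2
  have hGN : Nat.card G = 2 ^ k * Nat.card N := by
    rw [Subgroup.card_eq_card_quotient_mul_card_subgroup N, hk]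
  obtain ⟨j, hj⟩ : ∃ j, Nat.card H = Nat.card N * 2 ^ j := by
    have h1 : Nat.card N ∣ Nat.card H := Subgroup.card_dvd_of_injective inN inN_inj
    obtain ⟨r, hr⟩ := h1
    have h3 : Nat.card H ∣ Nat.card (G × ℤˣ) := Subgroup.card_subgroup_dvd_card _
    rw [Nat.card_prod, hGN, hr, show Nat.card ℤˣ = 2 by simp [Nat.card_eq_fintype_card],
      mul_comm (2 ^ k), mul_assoc, ← pow_succ] at h3
    obtain ⟨j, -, hj⟩ := (Nat.dvd_prime_pow Nat.prime_two).1
      (Nat.dvd_of_mul_dvd_mul_left Nat.card_pos h3)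
    exact ⟨j, by rw [hr, hj]⟩
  have hN' : Nat.card inN.range = Nat.card N :=
    (Nat.card_congr (MonoidHom.ofInjective inN_inj).toEquiv).symm
  -- centralisers
  have hstab : ∀ n : N, ∃ i, i ≤ j ∧
      Nat.card (MulAction.stabilizer H n) = Nat.card (Subgroup.centralizer ({n} : Set N)) * 2 ^ i := by
    intro n
    let S := MulAction.stabilizer H n
    have e : Nat.card (inN.range ⊓ S : Subgroup H) = Nat.card (Subgroup.centralizer ({n} : Set N)) := by
      have : (inN.range ⊓ S : Subgroup H) = (Subgroup.centralizer ({n} : Set N)).map inN := by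
        ext h
        constructor
        · rintro ⟨⟨a, rfl⟩, hs⟩
          refine ⟨a, Subgroup.mem_centralizer_singleton_iff.2 ?_, rfl⟩
          have h1 : inN a • n = n := hs
          rw [inN_smul] at h1
          exact mul_inv_eq_iff_eq_mul.1 h1
        · rintro ⟨a, ha, rfl⟩
          refine ⟨⟨a, rfl⟩, ?_⟩
          show inN a • n = n
          rw [inN_smul, mul_inv_eq_iff_eq_mul]
          exact Subgroup.mem_centralizer_singleton_iff.1 ha
      rw [this, Nat.card_congr (Subgroup.equivMapOfInjective _ inN inN_inj).toEquiv.symm]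
    haveI : inN.range.Normal := ⟨by
      rintro _ ⟨a, rfl⟩ h
      refine ⟨MulAut.conjNormal h.1.1 a, Subtype.ext (Prod.ext ?_ ?_)⟩
      · simp [inN, MulAut.conjNormal_apply]
      · simp [inN]⟩
    have hidx : inN.range.index = 2 ^ j := by
      have := inN.range.card_mul_index
      rw [hN', hj] at this
      exact Nat.eq_of_mul_eq_mul_left Nat.card_pos this
    have hd : inN.range.relIndex S ∣ 2 ^ j := hidx ▸ Subgroup.relIndex_dvd_index_of_normal _ _
    obtain ⟨i, hi, hi'⟩ := (Nat.dvd_prime_pow Nat.prime_two).1 hd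
    refine ⟨i, hi, ?_⟩
    rw [← e, ← hi', ← Subgroup.inf_relIndex_right]
    have := Subgroup.card_mul_index ((inN.range ⊓ S).subgroupOf S)
    rw [Nat.card_congr (Subgroup.subgroupOfEquivOfLe inf_le_right).toEquiv] at this
    exact this.symm
  -- the orbit sum
  have horb : ∀ n : N, ∀ i, Nat.card (MulAction.stabilizer H n) =
      Nat.card (Subgroup.centralizer ({n} : Set N)) * 2 ^ i → i ≤ j →
      Nat.card (MulAction.orbit H n) = (Subgroup.centralizer ({n} : Set N)).index * 2 ^ (j - i) := by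
    intro n i hi hij
    have h1 := (MulAction.stabilizer H n).card_mul_index
    rw [MulAction.index_stabilizer, ← Nat.card_coe_set_eq, hi, hj,
      ← (Subgroup.centralizer ({n} : Set N)).card_mul_index] at h1
    refine Nat.eq_of_mul_eq_mul_left
      (Nat.mul_pos Nat.card_pos (pow_pos two_pos i) :
        0 < Nat.card (Subgroup.centralizer ({n} : Set N)) * 2 ^ i) ?_
    rw [h1, show j = i + (j - i) by omega, pow_add, Nat.add_sub_cancel_left]
    ring
  have hdN : charDegree f ∣ Nat.card N := charDegree_dvd_card hχ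
  obtain ⟨r, hr⟩ := hdN
  have hd0 : charDegree f ≠ 0 := (charDegree_pos hχ).ne'
  have hrodd : Odd r := by
    rw [← Nat.not_even_iff_odd, even_iff_two_dvd]
    intro h
    have : 2 ^ ((Nat.card N).factorization 2 + 1) ∣ Nat.card N := by
      conv_rhs => rw [hr]
      rw [pow_succ]; exact mul_dvd_mul hdef h
    have := (Nat.prime_two.pow_dvd_iff_le_factorization Nat.card_pos.ne').1 this
    omega
  have hf1 : f 1 = (charDegree f : ℂ) := apply_one_eq_charDegree hc
  -- a special element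
  obtain ⟨y, hy, hsp⟩ : ∃ y : N, (Nat.card (MulAction.stabilizer H y) =
      Nat.card (Subgroup.centralizer ({y} : Set N)) * 2 ^ j) ∧ ¬ IsIntegral ℤ (f y⁻¹ / 2) := by
    by_contra hall
    push Not at hall
    apply not_isIntegral_odd_half hrodd
    have hsum : ∑ n : N, f n * f n⁻¹ = (Nat.card N : ℂ) := by
      have h := classInner_irr_self hχ
      simp only [classInner, ← char_inv hc] at h
      have hne : (Nat.card N : ℂ) ≠ 0 := Nat.cast_ne_zero.2 Nat.card_pos.ne'
      field_simp at h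
      simpa using h
    haveI : Fintype (Quotient (MulAction.orbitRel H N)) := Fintype.ofFinite _
    let π : N → Quotient (MulAction.orbitRel H N) := Quotient.mk _
    have hfib : ∑ q : Quotient (MulAction.orbitRel H N),
        (Nat.card (MulAction.orbit H q.out) : ℂ) * (f q.out * f q.out⁻¹) = (Nat.card N : ℂ) := by
      rw [← hsum, ← Finset.sum_fiberwise Finset.univ π]
      refine Finset.sum_congr rfl fun q _ => ?_
      rw [Finset.sum_congr rfl (g := fun _ => f q.out * f q.out⁻¹) fun n hn => ?_]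
      · rw [Finset.sum_const, nsmul_eq_mul]
        congr 2
        rw [← Fintype.card_subtype, ← Nat.card_eq_fintype_card]
        refine Nat.card_congr (Equiv.subtypeEquivRight fun n => ?_)
        rw [← MulAction.orbitRel_apply]
        conv_rhs => rw [show π n = q ↔ π n = π q.out by rw [show π q.out = q from Quotient.out_eq q]]
        exact (Quotient.eq).symm
      · obtain ⟨h, rfl⟩ : n ∈ MulAction.orbit H q.out := by
          rw [← MulAction.orbitRel_apply]
          exact Quotient.exact ((Finset.mem_filter.1 hn).2.trans (Quotient.out_eq q).symm)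
        show f (h • q.out) * f (h • q.out)⁻¹ = _
        rw [char_inv hc, char_inv hc, apply_smul (φ := f)]
    have key : (r : ℂ) / 2 = ∑ q : Quotient (MulAction.orbitRel H N),
        (Nat.card (MulAction.orbit H q.out) : ℂ) * (f q.out * f q.out⁻¹) / f 1 / 2 := by
      rw [← Finset.sum_div, ← Finset.sum_div, hfib, hf1]
      conv_rhs => rw [hr, Nat.cast_mul, mul_div_cancel_left₀ _ (Nat.cast_ne_zero.2 hd0)]
    rw [key]
    refine IsIntegral.sum _ fun q _ => ?_
    obtain ⟨i, hij, hi⟩ := hstab q.out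
    rw [horb q.out i hi hij]
    have hω := isIntegral_classSize_mul_div hχ q.out
    rcases eq_or_lt_of_le hij with rfl | hlt
    · have h3 := hall q.out hi
      rw [Nat.sub_self, pow_zero, mul_one]
      convert hω.mul h3 using 1
      ring
    · obtain ⟨e, he⟩ : ∃ e, j - i = e + 1 := ⟨j - i - 1, by omega⟩
      rw [he]
      have h3 := (hω.mul (char_isIntegral hc q.out⁻¹)).mul (isIntegral_natCast (2 ^ e))
      convert h3 using 1
      push_cast
      ring
  -- the centraliser of y has odd order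
  set C := Subgroup.centralizer ({y} : Set N)
  have hCodd : ¬ 2 ∣ Nat.card C := by
    intro h2C
    apply hsp
    obtain ⟨o, ho1, ho2⟩ : ∃ o i : ℕ, C.index = 2 ^ i * o ∧ Odd o ∧ i < (Nat.card N).factorization 2 := by
      have hi0 : C.index ≠ 0 := Subgroup.index_ne_zero_of_finite
      refine ⟨C.index / 2 ^ C.index.factorization 2, C.index.factorization 2,
        (Nat.ordProj_mul_ordCompl_eq_self _ 2).symm, ?_, ?_⟩
      · rw [← Nat.not_even_iff_odd, even_iff_two_dvd]
        exact Nat.not_dvd_ordCompl Nat.prime_two hi0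
      · have h := congrArg (fun m => m.factorization 2) C.card_mul_index
        simp only [Nat.factorization_mul Nat.card_pos.ne' hi0, Finsupp.coe_add, Pi.add_apply] at h
        have := Nat.Prime.factorization_pos_of_dvd Nat.prime_two Nat.card_pos.ne' h2C
        omega
    obtain ⟨hidx, hodd, hlt⟩ := ho2
    obtain ⟨e, he⟩ : ∃ e, (Nat.card N).factorization 2 = ho1 + (e + 1) :=
      ⟨(Nat.card N).factorization 2 - ho1 - 1, by omega⟩
    obtain ⟨b, hb⟩ := hdef
    rw [he] at hb
    have hω := (isIntegral_classSize_mul_div hχ y⁻¹)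
    have hcent : Subgroup.centralizer ({y⁻¹} : Set N) = C := by
      ext a
      simp only [C, Subgroup.mem_centralizer_singleton_iff]
      exact ⟨fun h => by simpa using (Commute.inv_right (show Commute a y⁻¹ from h)).eq,
        fun h => (Commute.inv_right (show Commute a y from h)).eq⟩
    rw [hcent, hidx, hf1, hb] at hω
    have h4 : IsIntegral ℤ ((o : ℂ) * f y⁻¹ / 2) := by
      have hb0 : (b : ℂ) ≠ 0 := Nat.cast_ne_zero.2 fun h0 => hd0 (by rw [hb, h0, mul_zero])
      have e' : (o : ℂ) * f y⁻¹ / 2 = ((2 ^ ho1 * o : ℕ) : ℂ) * f y⁻¹ /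
          ((2 ^ (ho1 + (e + 1)) * b : ℕ) : ℂ) * ((2 ^ e * b : ℕ) : ℂ) := by
        push_cast
        field_simp
        ring
      rw [e']
      exact hω.mul (isIntegral_natCast _)
    obtain ⟨a, rfl⟩ := hodd
    have e' : f y⁻¹ / 2 = ((2 * a + 1 : ℕ) : ℂ) * f y⁻¹ / 2 - (a : ℂ) * f y⁻¹ := by
      push_cast
      ring
    rw [e']
    exact h4.sub ((isIntegral_natCast a).mul (char_isIntegral hc y⁻¹))
  -- the twisting group
  set S := MulAction.stabilizer H y
  obtain ⟨P⟩ : Nonempty (Sylow 2 S) := inferInstance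
  have hP : Nat.card P = 2 ^ j := by
    rw [P.card_eq_multiplicity]
    congr 1
    rw [hy, Nat.factorization_mul Nat.card_pos.ne' (pow_ne_zero _ two_ne_zero)]
    simp only [Finsupp.coe_add, Pi.add_apply, Nat.factorization_eq_zero_of_not_dvd hCodd,
      Nat.factorization_pow, Finsupp.smul_apply, Nat.prime_two.factorization_self, smul_eq_mul,
      mul_one, zero_add]
  let Qs : Subgroup H := (P : Subgroup S).map S.subtype
  have hQs : Nat.card Qs = 2 ^ j := by
    rw [← hP]
    exact (Nat.card_congr (Subgroup.equivMapOfInjective _ _ S.subtype_injective).toEquiv).symm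
  have hQsS : Qs ≤ S := Subgroup.map_subtype_le _
  have hdis : inN.range ⊓ Qs = ⊥ := by
    refine Subgroup.eq_bot_of_card_eq _ ?_
    have h1 : Nat.card (inN.range ⊓ Qs : Subgroup H) ∣ 2 ^ j :=
      hQs ▸ Subgroup.card_dvd_of_le inf_le_right
    have hle : (inN.range ⊓ Qs : Subgroup H) ≤ C.map inN := by
      rintro h ⟨⟨a, rfl⟩, hq⟩
      refine ⟨a, Subgroup.mem_centralizer_singleton_iff.2 ?_, rfl⟩
      have h3 : inN a • y = y := hQsS hq
      rw [inN_smul] at h3
      exact mul_inv_eq_iff_eq_mul.1 h3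
    have h5 := Subgroup.card_dvd_of_le hle
    rw [Nat.card_congr (Subgroup.equivMapOfInjective _ inN inN_inj).toEquiv.symm] at h5
    obtain ⟨i, -, hi⟩ := (Nat.dvd_prime_pow Nat.prime_two).1 h1
    rw [hi] at h5 ⊢
    rcases i with _ | i
    · rfl
    · exact (hCodd ((dvd_pow_self 2 (Nat.succ_ne_zero i)).trans h5)).elim
  have hcompl : Subgroup.IsComplement' inN.range Qs := by
    refine Subgroup.isComplement'_of_card_mul_and_disjoint ?_ (disjoint_iff.2 hdis)
    rw [hN', hQs, hj]
  have hdecomp : ∀ h : H, ∃ (n : N) (q : H), q ∈ Qs ∧ h = inN n * q := by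
    intro h
    obtain ⟨⟨⟨_, n, rfl⟩, q⟩, hq⟩ := hcompl.2 h
    exact ⟨n, q.1, q.2, hq.symm⟩
  let Q : Subgroup G := (Qs.map H.subtype).comap (MonoidHom.inl G ℤˣ)
  have hQ : ∀ q : G, q ∈ Q ↔ ∃ hq : (q, (1 : ℤˣ)) ∈ H, (⟨(q, 1), hq⟩ : H) ∈ Qs := fun q =>
    ⟨fun ⟨a, ha, hae⟩ => by
      obtain ⟨v, hv⟩ := a
      simp only [Subgroup.subtype_apply, MonoidHom.inl_apply] at hae
      subst hae
      exact ⟨hv, ha⟩, fun ⟨hq, h⟩ => ⟨_, h, rfl⟩⟩
  obtain ⟨g, hg⟩ := hg
  have hgH : (g, (-1 : ℤˣ)) ∈ H := fun n => by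
    simpa using hg n
  obtain ⟨n0, ⟨⟨x, u⟩, hxH⟩, hxQ, hxe⟩ := hdecomp ⟨_, hgH⟩
  have hu : u = -1 := by
    have := congrArg (fun z : H => z.1.2) hxe
    simpa [inN] using this.symm
  subst hu
  refine ⟨y, Q, x, fun q hq => ?_, fun t ht => ?_, ?_, ?_, fun q hq => ?_, ?_, fun q hq => ?_, ?_,
    fun n => ?_, hsp⟩
  · obtain ⟨hq, -⟩ := (hQ q).1 hq
    rw [mem_inertia]
    funext n
    have := hq n
    simp only [Units.val_one, zpow_one] at this
    exact this
  · have htH : (t, (1 : ℤˣ)) ∈ H := fun n => by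
      simp only [Units.val_one, zpow_one]
      exact congrFun ((mem_inertia N).1 ht) n
    obtain ⟨n, ⟨⟨q, v⟩, hqH⟩, hq, he⟩ := hdecomp ⟨_, htH⟩
    have hv : v = 1 := by
      have := congrArg (fun z : H => z.1.2) he
      simpa [inN] using this.symm
    subst hv
    exact ⟨n, q, (hQ q).2 ⟨hqH, hq⟩, congrArg (fun z : H => z.1.1) he⟩
  · refine eq_bot_iff.2 fun a ha => ?_
    obtain ⟨hq, hq'⟩ := (hQ a).1 ha.2
    have : (⟨(a, 1), hq⟩ : H) ∈ inN.range ⊓ Qs := ⟨⟨⟨a, ha.1⟩, rfl⟩, hq'⟩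
    rw [hdis, Subgroup.mem_bot] at this
    exact congrArg (fun z : H => z.1.1) this
  · have hp : IsPGroup 2 Qs := IsPGroup.of_card hQs
    have hp2 : IsPGroup 2 (Qs.map H.subtype) := hp.map _
    exact hp2.comap_of_injective (MonoidHom.inl G ℤˣ) fun a b h => congrArg Prod.fst h
  · obtain ⟨hq', hm⟩ := (hQ q).1 hq
    have h1 : (⟨(q, 1), hq'⟩ : H) • y = y := hQsS hm
    rw [smul_def] at h1
    simpa using h1
  · have h1 : (⟨(x, -1), hxH⟩ : H) • y = y := hQsS hxQ
    rw [smul_def] at h1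
    simp only [Units.val_neg, Units.val_one, zpow_neg, zpow_one, map_inv] at h1
    exact inv_eq_iff_eq_inv.1 h1
  · obtain ⟨hq', hm⟩ := (hQ q).1 hq
    have hm' := Qs.mul_mem (Qs.mul_mem hxQ hm) (Qs.inv_mem hxQ)
    have e : ((⟨(x, -1), hxH⟩ * ⟨(q, 1), hq'⟩ * (⟨(x, -1), hxH⟩ : H)⁻¹ : H) : G × ℤˣ) =
        (x * q * x⁻¹, 1) := by simp
    exact (hQ _).2 ⟨e ▸ SetLike.coe_mem _, by convert hm' using 1; exact Subtype.ext e.symm⟩
  · have hm' := Qs.mul_mem hxQ hxQ
    have e : ((⟨(x, -1), hxH⟩ * ⟨(x, -1), hxH⟩ : H) : G × ℤˣ) = (x * x, 1) := by simp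
    exact (hQ _).2 ⟨e ▸ SetLike.coe_mem _, by convert hm' using 1; exact Subtype.ext e.symm⟩
  · have := hxH n
    simpa using this

end Cfsg.Agent.Lib.GowReal
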