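import Cfsg.Agent.Lib.CharClifford.MatrixRep

/-!
# Twisted Frobenius–Schur sums
-/

set_option autoImplicit false
set_option linter.unusedSectionVars false

open Matrix

namespace Cfsg.Agent.Lib.GowReal

open Cfsg Cfsg.Agent.Lib.Char Cfsg.Agent.Lib.CharClifford

universe u

variable {N : Type u} [Group N] [Fintype N] {d : ℕ}
  (ρ : N →* Matrix (Fin d) (Fin d) ℂ) (α : N →* N)

/-- Sum of `Tr (ρ (α n) S ρ n)` when an invertible invariant form exists. -/
theorem twisted_sum (hirr : IsIrrCharacter N fun n => (ρ n).trace)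
    {E Ei : Matrix (Fin d) (Fin d) ℂ} (hEi : Ei * E = 1) (hEi' : E * Ei = 1)
    (hE : ∀ n, (ρ (α n))ᵀ * E * ρ n = E) (S : Matrix (Fin d) (Fin d) ℂ) :
    (d : ℂ) * ∑ n, (ρ (α n) * S * ρ n).trace =
      (Fintype.card N : ℂ) * (Eᵀ * S * Ei).trace := by
  classical
  have hEiinv : ∀ n, ρ n * Ei * (ρ (α n))ᵀ = Ei := by
    intro n
    have h1 : (Ei * (ρ (α n))ᵀ * E) * ρ n = 1 := by
      have := congrArg (Ei * ·) (hE n)
      simp only [hEi, ← Matrix.mul_assoc] at this
      exact this
    have h2 := mul_eq_one_comm.1 h1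
    have h3 := congrArg (· * Ei) h2
    simp only [Matrix.mul_assoc, hEi', Matrix.mul_one, one_mul] at h3
    simpa [Matrix.mul_assoc] using h3
  have hZ : ∀ a b : Fin d, ∀ i j, (d : ℂ) * ∑ n, ρ (α n) a i * ρ n b j =
      (Fintype.card N : ℂ) * Ei b a * E i j := by
    intro a b i j
    let Z : Matrix (Fin d) (Fin d) ℂ := ∑ n, (ρ (α n))ᵀ * Matrix.single a b 1 * ρ n
    have hZinv : ∀ m, (ρ (α m))ᵀ * Z * ρ m = Z := by
      intro m
      simp only [Z, Matrix.mul_sum, Matrix.sum_mul]
      refine Fintype.sum_equiv (Equiv.mulRight m) _ _ fun n => ?_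
      rw [Equiv.coe_mulRight, map_mul α, map_mul, map_mul, Matrix.transpose_mul]
      simp only [Matrix.mul_assoc]
    obtain ⟨c, hc⟩ := scalar_of_irr ρ hirr (Ei * Z) fun m => by
      have h1 : (ρ (α m⁻¹))ᵀ * (ρ (α m))ᵀ = 1 := by
        rw [← Matrix.transpose_mul, ← map_mul, ← map_mul, mul_inv_cancel, map_one, map_one,
          Matrix.transpose_one]
      have h2 : Z * ρ m = (ρ (α m⁻¹))ᵀ * Z := by
        conv_rhs => rw [← hZinv m]
        rw [← Matrix.mul_assoc, ← Matrix.mul_assoc, h1, Matrix.one_mul]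
      have h3 : Ei * (ρ (α m⁻¹))ᵀ = ρ m * Ei := by
        conv_lhs => rw [← hEiinv m]
        rw [Matrix.mul_assoc (ρ m * Ei), ← Matrix.transpose_mul, ← map_mul, ← map_mul,
          inv_mul_cancel, map_one, map_one, Matrix.transpose_one, Matrix.mul_one]
      rw [Matrix.mul_assoc, h2, ← Matrix.mul_assoc, h3, Matrix.mul_assoc]
    have hZc : Z = c • E := by
      have := congrArg (E * ·) hc
      simpa [← Matrix.mul_assoc, hEi'] using this
    have htr : c * (d : ℂ) = (Fintype.card N : ℂ) * Ei b a := by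
      have h1 := congrArg Matrix.trace hc
      rw [Matrix.trace_smul, Matrix.trace_one, Fintype.card_fin, smul_eq_mul] at h1
      rw [← h1]
      simp only [Z, Matrix.mul_sum, Matrix.trace_sum]
      rw [Finset.sum_congr rfl (g := fun _ => Ei b a) fun n _ => ?_]
      · simp
      · rw [← Matrix.mul_assoc, Matrix.trace_mul_cycle, ← Matrix.mul_assoc]
        rw [hEiinv, Matrix.trace_mul_single]
        simp
    have hval : ∑ n, ρ (α n) a i * ρ n b j = Z i j := by
      simp [Z, Matrix.sum_apply, Matrix.mul_apply, Matrix.single_apply, ite_and]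
    rw [hval, hZc, Matrix.smul_apply, smul_eq_mul, ← mul_assoc, mul_comm (d : ℂ), htr]
  calc (d : ℂ) * ∑ n, (ρ (α n) * S * ρ n).trace
      = ∑ a, ∑ b, ∑ i, S i b * ((d : ℂ) * ∑ n, ρ (α n) a i * ρ n b a) := by
        simp only [Matrix.trace, Matrix.diag, Matrix.mul_apply, Finset.sum_mul, Finset.mul_sum]
        rw [Finset.sum_comm]
        refine Finset.sum_congr rfl fun a _ => ?_
        rw [Finset.sum_comm]
        refine Finset.sum_congr rfl fun b _ => ?_
        rw [Finset.sum_comm]
        exact Finset.sum_congr rfl fun i _ => Finset.sum_congr rfl fun n _ => by ring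
    _ = ∑ a, ∑ b, ∑ i, S i b * ((Fintype.card N : ℂ) * Ei b a * E i a) := by simp only [hZ]
    _ = _ := by
        simp only [Matrix.trace, Matrix.diag, Matrix.mul_apply, Matrix.transpose_apply,
          Finset.sum_mul, Finset.mul_sum]
        exact Finset.sum_congr rfl fun a _ => Finset.sum_congr rfl fun b _ =>
          Finset.sum_congr rfl fun i _ => by ring

/-- Without an invariant form the twisted sum vanishes. -/
theorem twisted_sum_zero (hirr : IsIrrCharacter N fun n => (ρ n).trace)
    (hne : ∃ n, (ρ (α n)).trace ≠ (ρ n⁻¹).trace) (S : Matrix (Fin d) (Fin d) ℂ) :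
    ∑ n, (ρ (α n) * S * ρ n).trace = 0 := by
  classical
  have hZ : ∀ Z : Matrix (Fin d) (Fin d) ℂ, (∀ m, (ρ (α m))ᵀ * Z * ρ m = Z) → Z = 0 := by
    intro Z hinv
    have h2 : ∀ m, Z * ρ m = (ρ (α m⁻¹))ᵀ * Z := by
      intro m
      conv_rhs => rw [← hinv m]
      rw [← Matrix.mul_assoc, ← Matrix.mul_assoc, ← Matrix.transpose_mul, ← map_mul, ← map_mul,
        mul_inv_cancel, map_one, map_one, Matrix.transpose_one, Matrix.one_mul]
    haveI : (toRep ρ).IsIrreducible :=
      isIrreducible_of_isIrrCharacter (toRep ρ) (by rwa [funext (character_toRep ρ)])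
    let U : Subrepresentation (toRep ρ) :=
      { toSubmodule := LinearMap.ker (Matrix.toLin' Z)
        apply_mem_toSubmodule := fun m v hv => by
          rw [LinearMap.mem_ker, Matrix.toLin'_apply] at hv ⊢
          rw [toRep_apply, Matrix.mulVec_mulVec, h2, ← Matrix.mulVec_mulVec, hv,
            Matrix.mulVec_zero] }
    rcases eq_bot_or_eq_top U with hU | hU
    · exfalso
      have hk : LinearMap.ker (Matrix.toLin' Z) = ⊥ := congrArg (·.toSubmodule) hU
      have hu : IsUnit Z := by
        rw [← Matrix.mulVec_injective_iff_isUnit]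
        rw [LinearMap.ker_eq_bot] at hk
        exact fun a b h => hk (by simpa [Matrix.toLin'_apply] using h)
      obtain ⟨W, rfl⟩ := hu
      obtain ⟨n, hn⟩ := hne
      apply hn
      have h3 := congrArg (· * ((W⁻¹ : (Matrix (Fin d) (Fin d) ℂ)ˣ) : Matrix (Fin d) (Fin d) ℂ))
        (h2 n⁻¹)
      simp only [inv_inv, Matrix.mul_assoc, Units.mul_inv, Matrix.mul_one] at h3
      rw [← Matrix.trace_transpose (ρ (α n)), ← h3, ← Matrix.mul_assoc, Matrix.trace_units_conj]
    · refine Matrix.toLin'.injective (LinearMap.ext fun v => ?_)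
      have hv : v ∈ U.toSubmodule := by rw [hU]; trivial
      rw [map_zero, LinearMap.zero_apply]
      exact LinearMap.mem_ker.1 hv
  have hval : ∀ a b i j, ∑ n, ρ (α n) a i * ρ n b j = 0 := by
    intro a b i j
    have h := hZ (∑ n, (ρ (α n))ᵀ * Matrix.single a b 1 * ρ n) fun m => by
      simp only [Matrix.mul_sum, Matrix.sum_mul]
      refine Fintype.sum_equiv (Equiv.mulRight m) _ _ fun n => ?_
      rw [Equiv.coe_mulRight, map_mul α, map_mul, map_mul, Matrix.transpose_mul]
      simp only [Matrix.mul_assoc]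
    have h' := congrFun (congrFun h i) j
    simpa [Matrix.sum_apply, Matrix.mul_apply, Matrix.single_apply, ite_and] using h'
  calc ∑ n, (ρ (α n) * S * ρ n).trace
      = ∑ a, ∑ b, ∑ i, S i b * ∑ n, ρ (α n) a i * ρ n b a := by
        simp only [Matrix.trace, Matrix.diag, Matrix.mul_apply, Finset.sum_mul, Finset.mul_sum]
        rw [Finset.sum_comm]
        refine Finset.sum_congr rfl fun a _ => ?_
        rw [Finset.sum_comm]
        refine Finset.sum_congr rfl fun b _ => ?_
        rw [Finset.sum_comm]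
        exact Finset.sum_congr rfl fun i _ => Finset.sum_congr rfl fun n _ => by ring
    _ = 0 := by simp [hval]

end Cfsg.Agent.Lib.GowReal
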