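import Cfsg.Agent.Lib.GowReal.Idem
import Cfsg.Agent.Lib.GowReal.Twisted
import Cfsg.Agent.Lib.GowReal.DefectZero
import Mathlib.FieldTheory.Finite.Basic
import Mathlib.FieldTheory.IsAlgClosed.Basic

/-!
# The canonical extension of a character of 2-defect zero
-/

set_option autoImplicit false
set_option linter.unusedSectionVars false

open Matrix

namespace Cfsg.Agent.Lib.GowReal

open Cfsg Cfsg.Agent.Lib.Char Cfsg.Agent.Lib.CharClifford
open scoped ComplexConjugate

universe u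

variable {G : Type u} [Group G] [Finite G] (N : Subgroup G) [N.Normal] {d : ℕ}

/-- An invariant form is a multiple of an invertible one. -/
theorem exists_smul_of_invariant {M : Type u} [Group M] [Finite M]
    (ρ : M →* Matrix (Fin d) (Fin d) ℂ) (α : M →* M)
    (hirr : IsIrrCharacter M fun n => (ρ n).trace)
    {E Ei Z : Matrix (Fin d) (Fin d) ℂ} (hEi : Ei * E = 1) (hEi' : E * Ei = 1)
    (hE : ∀ n, (ρ (α n))ᵀ * E * ρ n = E) (hZ : ∀ n, (ρ (α n))ᵀ * Z * ρ n = Z) :
    ∃ c : ℂ, Z = c • E := by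
  haveI := Fintype.ofFinite M
  have h2 : ∀ (W : Matrix (Fin d) (Fin d) ℂ), (∀ n, (ρ (α n))ᵀ * W * ρ n = W) →
      ∀ n, W * ρ n = (ρ (α n⁻¹))ᵀ * W := by
    intro W hW n
    conv_rhs => rw [← hW n]
    rw [← Matrix.mul_assoc, ← Matrix.mul_assoc, ← Matrix.transpose_mul, ← map_mul, ← map_mul,
      mul_inv_cancel, map_one, map_one, Matrix.transpose_one, Matrix.one_mul]
  obtain ⟨c, hc⟩ := scalar_of_irr ρ hirr (Ei * Z) fun n => by
    have h3 : Ei * (ρ (α n⁻¹))ᵀ = ρ n * Ei :=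
      calc Ei * (ρ (α n⁻¹))ᵀ = Ei * ((ρ (α n⁻¹))ᵀ * E) * Ei := by
            rw [Matrix.mul_assoc, Matrix.mul_assoc, hEi', Matrix.mul_one]
        _ = Ei * (E * ρ n) * Ei := by rw [h2 E hE n]
        _ = ρ n * Ei := by rw [← Matrix.mul_assoc Ei, hEi, Matrix.one_mul]
    rw [Matrix.mul_assoc, h2 Z hZ n, ← Matrix.mul_assoc, h3, Matrix.mul_assoc]
  refine ⟨c, ?_⟩
  have := congrArg (E * ·) hc
  simpa [← Matrix.mul_assoc, hEi'] using this

variable [Fintype N]

open scoped Classical in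
set_option maxHeartbeats 1000000 in
/-- The canonical extension and its twisted indicators. -/
theorem exists_extension (φ : IrrCharacter N) (y : N) (Q : Subgroup G) (x : G)
    (hQle : Q ≤ inertia N (φ : N → ℂ))
    (hTQ : ∀ t ∈ inertia N (φ : N → ℂ), ∃ n : N, ∃ q ∈ Q, t = n * q)
    (hdisj : N ⊓ Q = ⊥) (hQ : IsPGroup 2 Q) (hQy : ∀ q ∈ Q, MulAut.conjNormal q y = y)
    (hxy : MulAut.conjNormal x y = y⁻¹) (hxQ : ∀ q ∈ Q, x * q * x⁻¹ ∈ Q) (hx2 : x * x ∈ Q)
    (hxφ : ∀ n : N, (φ : N → ℂ) (MulAut.conjNormal x n) = (φ : N → ℂ) n⁻¹)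
    (hy : ¬ IsIntegral ℤ ((φ : N → ℂ) y⁻¹ / 2)) :
    ∃ η : inertia N (φ : N → ℂ) → ℂ, IsIrrCharacter (inertia N (φ : N → ℂ)) η ∧
      (∀ n : N, η ⟨n, le_inertia N (isClassFunction_of_isIrr φ.2) n.2⟩ = (φ : N → ℂ) n) ∧
      ∀ g : G, g * g ∈ inertia N (φ : N → ℂ) →
        ∑ n : N, extendByZero (inertia N (φ : N → ℂ)) η (g * n * (g * n)) =
          if (∀ n : N, (φ : N → ℂ) (MulAut.conjNormal g n) = (φ : N → ℂ) n⁻¹)
            then (Nat.card N : ℂ) else 0 := by
  haveI := Fintype.ofFinite G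
  haveI : Fintype Q := Fintype.ofFinite _
  obtain ⟨k, hk⟩ := IsPGroup.iff_card.1 hQ
  set T := inertia N (φ : N → ℂ) with hTdef
  have hNT : N ≤ T := le_inertia N (isClassFunction_of_isIrr φ.2)
  haveI : Finite T := inferInstance
  -- the representation
  obtain ⟨d, ρ0, hρ0, hρφ⟩ := φ.2
  let ρ : N →* Matrix (Fin d) (Fin d) ℂ :=
    (LinearMap.toMatrixAlgEquiv' (R := ℂ) (n := Fin d)).toAlgHom.toMonoidHom.comp ρ0
  have hρ : ∀ n, (ρ n).trace = (φ : N → ℂ) n := fun n => by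
    rw [← congrFun hρφ n, Representation.character,
      LinearMap.trace_eq_matrix_trace ℂ (Pi.basisFun ℂ (Fin d))]
    rfl
  have hirr : IsIrrCharacter N fun n => (ρ n).trace := by rw [funext hρ]; exact φ.2
  have hd : (d : ℂ) ≠ 0 := by
    have h := irr_degree_ne_zero φ.2
    rw [← hρ, map_one, Matrix.trace_one, Fintype.card_fin] at h
    exact h
  -- an odd eigenspace
  set o := orderOf y with ho
  have ho0 : o ≠ 0 := (orderOf_pos y).ne'
  have hyo : ρ y ^ o = 1 := by rw [← map_pow, ho, pow_orderOf_eq_one, map_one]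
  obtain ⟨c, hc, m, A, B, hAB, hBA, hm⟩ := exists_odd_eigProj ho0 hyo (by
    have e : y⁻¹ = y ^ (o - 1) := by
      refine inv_eq_of_mul_eq_one_right ?_
      rw [← pow_succ', Nat.sub_add_cancel (Nat.pos_of_ne_zero ho0), ho, pow_orderOf_eq_one]
    rwa [← map_pow, ← e, hρ])
  let P := eigProj (ρ y) o c
  have hcomP : ∀ U, Commute U (ρ y) → Commute U (A * B) := fun U hU => by
    rw [hAB]; exact commute_eigProj hU o c
  have hm0 : 0 < m := hm.pos
  let D : Matrix (Fin d) (Fin d) ℂ → ℂ := fun U => (B * U * A).det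
  have hD : ∀ U V, Commute V (ρ y) → D (U * V) = D U * D V := fun U V hV => by
    show (B * (U * V) * A).det = _
    rw [compress_mul hBA (hcomP V hV), Matrix.det_mul]
  have hDs : ∀ (s : ℂ) U, D (s • U) = s ^ m * D U := fun s U => by
    show (B * (s • U) * A).det = _
    rw [compress_smul, Matrix.det_smul, Fintype.card_fin]
  have hD1 : D 1 = 1 := by
    show (B * (1 : Matrix (Fin d) (Fin d) ℂ) * A).det = 1
    rw [Matrix.mul_one, hBA, Matrix.det_one]
  have hcomy : ∀ (q : Q) (U : Matrix (Fin d) (Fin d) ℂ),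
      (∀ n, U * ρ n = ρ (MulAut.conjNormal (q : G) n) * U) → Commute U (ρ y) := fun q U h => by
    have := h y
    rwa [hQy q q.2] at this
  -- normalised intertwiners
  have hex : ∀ q : Q, ∃ U : (Matrix (Fin d) (Fin d) ℂ)ˣ,
      (∀ n, (U : Matrix (Fin d) (Fin d) ℂ) * ρ n = ρ (MulAut.conjNormal (q : G) n) * U) ∧
      D U = 1 := by
    intro q
    obtain ⟨U, hU⟩ := exists_conj ρ (ρ.comp (MulAut.conjNormal (q : G) : MulAut N).toMonoidHom)
      fun n => by
        rw [hρ]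
        show _ = (ρ (MulAut.conjNormal (q : G) n)).trace
        rw [hρ]
        exact (congrFun ((mem_inertia N).1 (hQle q.2)) n).symm
    have hUn : ∀ n, (U : Matrix (Fin d) (Fin d) ℂ) * ρ n =
        ρ (MulAut.conjNormal (q : G) n) * U := fun n => by
      have h1 : ρ (MulAut.conjNormal (q : G) n) = (U : Matrix (Fin d) (Fin d) ℂ) * ρ n *
          ((U⁻¹ : (Matrix (Fin d) (Fin d) ℂ)ˣ) : Matrix (Fin d) (Fin d) ℂ) := hU n
      rw [h1, Units.inv_mul_cancel_right]
    have hD0 : D U ≠ 0 := by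
      intro h0
      have h1 : Commute (((U⁻¹ : (Matrix (Fin d) (Fin d) ℂ)ˣ)) : Matrix (Fin d) (Fin d) ℂ) (ρ y) :=
        Commute.units_inv_left (hcomy q _ hUn)
      have := hD (U : Matrix (Fin d) (Fin d) ℂ) _ h1
      rw [Units.mul_inv, hD1, h0, zero_mul] at this
      exact one_ne_zero this
    obtain ⟨s, hs⟩ := IsAlgClosed.exists_pow_nat_eq (D U)⁻¹ hm0
    have hs0 : s ≠ 0 := by
      rintro rfl
      rw [zero_pow hm0.ne'] at hs
      exact inv_ne_zero hD0 hs.symm
    refine ⟨⟨s • (U : Matrix (Fin d) (Fin d) ℂ), s⁻¹ • ((U⁻¹ : (Matrix (Fin d) (Fin d) ℂ)ˣ) :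
      Matrix (Fin d) (Fin d) ℂ), by rw [smul_mul_smul_comm, Units.mul_inv, mul_inv_cancel₀ hs0, one_smul],
      by rw [smul_mul_smul_comm, Units.inv_mul, inv_mul_cancel₀ hs0, one_smul]⟩, fun n => ?_, ?_⟩
    · show (s • (U : Matrix (Fin d) (Fin d) ℂ)) * ρ n = _ * (s • (U : Matrix (Fin d) (Fin d) ℂ))
      rw [smul_mul_assoc, hUn, mul_smul_comm]
    · show D (s • (U : Matrix (Fin d) (Fin d) ℂ)) = 1
      rw [hDs, hs, inv_mul_cancel₀ hD0]
  choose U hUn hUD using hex
  have hUy : ∀ q : Q, Commute (U q : Matrix (Fin d) (Fin d) ℂ) (ρ y) := fun q =>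
    hcomy q _ (hUn q)
  -- the cocycle
  have hα : ∀ q r : Q, ∃ a : ℂ, (U q : Matrix (Fin d) (Fin d) ℂ) * U r =
      a • (U (q * r) : Matrix (Fin d) (Fin d) ℂ) := by
    intro q r
    obtain ⟨a, ha⟩ := scalar_of_irr ρ hirr
      ((((U (q * r))⁻¹ : (Matrix (Fin d) (Fin d) ℂ)ˣ) : Matrix (Fin d) (Fin d) ℂ) *
        ((U q : Matrix (Fin d) (Fin d) ℂ) * U r)) fun n => by
      have h1 : ((U q : Matrix (Fin d) (Fin d) ℂ) * U r) * ρ n =
          ρ (MulAut.conjNormal ((q * r : Q) : G) n) * ((U q : Matrix (Fin d) (Fin d) ℂ) * U r) := by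
        rw [Matrix.mul_assoc, hUn, ← Matrix.mul_assoc, hUn, Matrix.mul_assoc, Subgroup.coe_mul,
          map_mul, MulAut.mul_apply]
      have h2 : (((U (q * r))⁻¹ : (Matrix (Fin d) (Fin d) ℂ)ˣ) : Matrix (Fin d) (Fin d) ℂ) *
          ρ (MulAut.conjNormal ((q * r : Q) : G) n) = ρ n *
          (((U (q * r))⁻¹ : (Matrix (Fin d) (Fin d) ℂ)ˣ) : Matrix (Fin d) (Fin d) ℂ) := by
        rw [Units.inv_mul_eq_iff_eq_mul, ← Matrix.mul_assoc, hUn, Units.mul_inv_cancel_right]
      rw [Matrix.mul_assoc, h1, ← Matrix.mul_assoc, h2, Matrix.mul_assoc]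
    refine ⟨a, ?_⟩
    have := congrArg ((U (q * r) : Matrix (Fin d) (Fin d) ℂ) * ·) ha
    simpa using this
  choose α hα using hα
  haveI : Nonempty (Fin d) := ⟨⟨0, Nat.pos_of_ne_zero fun h => hd (by rw [h]; norm_num)⟩⟩
  have hUinj : ∀ (q : Q) (a b : ℂ), a • (U q : Matrix (Fin d) (Fin d) ℂ) =
      b • (U q : Matrix (Fin d) (Fin d) ℂ) → a = b := fun q a b h =>
    smul_left_injective ℂ (Units.ne_zero (U q)) h
  have hαm : ∀ q r, α q r ^ m = 1 := fun q r => by
    have h := congrArg D (hα q r)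
    rwa [hD _ _ (hUy r), hDs, hUD, hUD, hUD, one_mul, mul_one, eq_comm] at h
  have hcoc : ∀ q r s, α q r * α (q * r) s = α r s * α q (r * s) := fun q r s => by
    apply hUinj (q * r * s)
    have h := Matrix.mul_assoc (U q : Matrix (Fin d) (Fin d) ℂ) (U r : Matrix (Fin d) (Fin d) ℂ)
      (U s : Matrix (Fin d) (Fin d) ℂ)
    rw [hα, hα, smul_mul_assoc, hα, mul_smul_comm, hα, smul_smul, smul_smul] at h
    rw [mul_assoc q r s] at h ⊢
    exact h
  let β : Q → ℂ := fun q => ∏ r : Q, α q r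
  have hβm : ∀ q, β q ^ m = 1 := fun q => by
    simp only [β, ← Finset.prod_pow, hαm, Finset.prod_const_one]
  have hβ : ∀ q r, α q r ^ 2 ^ k * β (q * r) = β r * β q := fun q r => by
    have h1 : ∏ s : Q, α q (r * s) = β q :=
      Fintype.prod_equiv (Equiv.mulLeft r) _ _ fun s => rfl
    rw [← hk, Nat.card_eq_fintype_card, ← h1, ← Finset.card_univ, ← Finset.prod_const,
      ← Finset.prod_mul_distrib, ← Finset.prod_mul_distrib]
    exact Finset.prod_congr rfl fun s _ => hcoc q r s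
  obtain ⟨j, hj⟩ : ∃ j, 2 ^ k * j % m = 1 % m := by
    have hcop : Nat.Coprime (2 ^ k) m := (Nat.coprime_two_left.2 hm).pow_left k
    refine ⟨(2 ^ k) ^ (m.totient - 1), ?_⟩
    rw [← pow_succ', Nat.sub_add_cancel (Nat.totient_pos.2 hm0)]
    exact Nat.ModEq.pow_totient hcop
  have hαj : ∀ q r, α q r ^ (2 ^ k * j) = α q r := fun q r => by
    rw [pow_eq_pow_mod (2 ^ k * j) (hαm q r), hj, ← pow_eq_pow_mod 1 (hαm q r), pow_one]
  have hβ0 : ∀ q, β q ≠ 0 := fun q h => by
    have := hβm q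
    rw [h, zero_pow hm0.ne'] at this
    exact zero_ne_one this
  let V : Q → Matrix (Fin d) (Fin d) ℂ := fun q => (β q ^ j)⁻¹ • (U q : Matrix (Fin d) (Fin d) ℂ)
  have hV : ∀ q r, V q * V r = V (q * r) := fun q r => by
    simp only [V]
    rw [smul_mul_smul_comm, hα, smul_smul]
    congr 1
    have h1 : α q r * β (q * r) ^ j = β r ^ j * β q ^ j := by
      rw [← hαj q r, pow_mul, ← mul_pow, ← mul_pow, hβ]
    have := pow_ne_zero j (hβ0 q); have := pow_ne_zero j (hβ0 r)
    have := pow_ne_zero j (hβ0 (q * r))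
    field_simp
    linear_combination h1
  have hV0 : ∀ q, V q ≠ 0 := fun q =>
    smul_ne_zero (inv_ne_zero (pow_ne_zero _ (hβ0 q))) (Units.ne_zero _)
  have hVn : ∀ (q : Q) n, V q * ρ n = ρ (MulAut.conjNormal (q : G) n) * V q := fun q n => by
    simp only [V]; rw [smul_mul_assoc, hUn, mul_smul_comm]
  have hVy : ∀ q, Commute (V q) (ρ y) := fun q => hcomy q _ (hVn q)
  have hVD : ∀ q, D (V q) = 1 := fun q => by
    simp only [V]
    rw [hDs, hUD, mul_one, inv_pow, ← pow_mul, mul_comm j, pow_mul, hβm, one_pow, inv_one]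
  have hV1 : V 1 = 1 := by
    have h := hV 1 1
    rw [one_mul] at h
    simp only [V] at h ⊢
    have hu : IsUnit ((β 1 ^ j)⁻¹ • (U 1 : Matrix (Fin d) (Fin d) ℂ)) := by
      have := (isUnit_iff_ne_zero.2 (inv_ne_zero (pow_ne_zero j (hβ0 1))))
      simpa [Algebra.smul_def] using (this.map (algebraMap ℂ (Matrix (Fin d) (Fin d) ℂ))).mul (U 1).isUnit
    exact hu.mul_eq_left.1 h
  clear_value V
  -- the extension
  choose fn fq hfq hfe using hTQ
  have huniq : ∀ (n n' : N) (q q' : Q), (n : G) * q = n' * q' → n = n' ∧ q = q' := by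
    intro n n' q q' h
    have h1 : ((n'⁻¹ * n : N) : G) = ((q' * q⁻¹ : Q) : G) := by
      simp only [Subgroup.coe_mul, Subgroup.coe_inv]
      rw [inv_mul_eq_iff_eq_mul, eq_comm, ← mul_assoc, ← h, mul_inv_cancel_right]
    have h2 : ((n'⁻¹ * n : N) : G) ∈ N ⊓ Q := ⟨SetLike.coe_mem _, h1 ▸ SetLike.coe_mem _⟩
    rw [hdisj, Subgroup.mem_bot] at h2
    refine ⟨(inv_mul_eq_one.1 (Subtype.ext h2 : n'⁻¹ * n = 1)).symm, ?_⟩
    rw [h2] at h1
    exact (mul_inv_eq_one.1 (Subtype.ext h1.symm : q' * q⁻¹ = 1)).symm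
  let σf : T → Matrix (Fin d) (Fin d) ℂ := fun t =>
    ρ (fn t t.2) * V ⟨fq t t.2, hfq t t.2⟩
  have hσ : ∀ (t : T) (n : N) (q : Q), (t : G) = n * q → σf t = ρ n * V q := by
    intro t n q h
    obtain ⟨h1, h2⟩ := huniq (fn t t.2) n ⟨fq t t.2, hfq t t.2⟩ q ((hfe t t.2).symm.trans h)
    simp only [σf, h1, h2]
  let σ : T →* Matrix (Fin d) (Fin d) ℂ :=
    { toFun := σf
      map_one' := by rw [hσ 1 1 1 (by simp), map_one, hV1, Matrix.one_mul]
      map_mul' := fun s t => by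
        rw [hσ (s * t) (fn s s.2 * MulAut.conjNormal (fq s s.2) (fn t t.2))
          (⟨fq s s.2, hfq s s.2⟩ * ⟨fq t t.2, hfq t t.2⟩) (by
            rw [Subgroup.coe_mul]
            conv_lhs => rw [hfe s s.2, hfe t t.2]
            simp [MulAut.conjNormal_apply, mul_assoc]),
          map_mul, ← hV]
        show _ = ρ (fn s s.2) * V _ * (ρ (fn t t.2) * V _)
        simp only [Matrix.mul_assoc]
        rw [← Matrix.mul_assoc (V ⟨fq s s.2, hfq s s.2⟩) (ρ (fn t t.2)), hVn, Matrix.mul_assoc] }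
  have hσN : ∀ n : N, σ ⟨n, hNT n.2⟩ = ρ n := fun n => by
    show σf _ = _
    rw [hσ _ n 1 (by simp), hV1, Matrix.mul_one]
  have hσQ : ∀ q : Q, σ ⟨q, hQle q.2⟩ = V q := fun q => by
    show σf _ = _
    rw [hσ _ 1 q (by simp), map_one, Matrix.one_mul]
  have hη : IsIrrCharacter T fun t => (σ t).trace := by
    haveI : Representation.IsIrreducible
        ((toRep σ).comp (Subgroup.inclusion hNT) : Representation ℂ N (Fin d → ℂ)) := by
      have e : ((toRep σ).comp (Subgroup.inclusion hNT) : Representation ℂ N (Fin d → ℂ)) =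
          toRep ρ := MonoidHom.ext fun n => LinearMap.ext fun v => by
        show toRep σ ⟨n, hNT n.2⟩ v = _
        rw [toRep_apply, toRep_apply, hσN]
      rw [e]
      exact isIrreducible_of_isIrrCharacter (toRep ρ) (by rwa [funext (character_toRep ρ)])
    haveI := isIrreducible_of_comp (toRep σ) (Subgroup.inclusion hNT)
    rw [← funext (character_toRep σ)]
    exact isIrrCharacter_character (toRep σ)
  -- the form
  let a : N →* N := (MulAut.conjNormal x : MulAut N).toMonoidHom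
  let σ' : N →* Matrix (Fin d) (Fin d) ℂ :=
    { toFun := fun n => (ρ (a n⁻¹))ᵀ
      map_one' := by simp
      map_mul' := fun p r => by rw [_root_.mul_inv_rev, map_mul, map_mul, Matrix.transpose_mul] }
  obtain ⟨E₀, hE₀⟩ := exists_conj ρ σ' fun n => by
    show _ = ((ρ (a n⁻¹))ᵀ).trace
    rw [Matrix.trace_transpose, hρ, hρ]
    exact ((hxφ n⁻¹).trans (by rw [inv_inv])).symm
  let E : Matrix (Fin d) (Fin d) ℂ := E₀
  let Ei : Matrix (Fin d) (Fin d) ℂ := ((E₀⁻¹ : (Matrix (Fin d) (Fin d) ℂ)ˣ) : Matrix _ _ ℂ)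
  have hEi : Ei * E = 1 := Units.inv_mul E₀
  have hEi' : E * Ei = 1 := Units.mul_inv E₀
  have hE : ∀ n, (ρ (a n))ᵀ * E * ρ n = E := by
    intro n
    have h1 : (ρ (a n⁻¹))ᵀ = E * ρ n * Ei := hE₀ n
    have h2 : E * ρ n = (ρ (a n⁻¹))ᵀ * E := by rw [h1, Matrix.mul_assoc, hEi, Matrix.mul_one]
    rw [Matrix.mul_assoc, h2, ← Matrix.mul_assoc, ← Matrix.transpose_mul, ← map_mul, ← map_mul,
      inv_mul_cancel, map_one, map_one, Matrix.transpose_one, Matrix.one_mul]
  have hER : E * ρ y = (ρ y)ᵀ * E := by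
    have h := hE y
    have h1 : a y = y⁻¹ := hxy
    rw [h1] at h
    conv_rhs => rw [← h]
    rw [← Matrix.mul_assoc, ← Matrix.mul_assoc, ← Matrix.transpose_mul, ← map_mul, inv_mul_cancel,
      map_one, Matrix.transpose_one, Matrix.one_mul]
  have hEP : E * (A * B) = (A * B)ᵀ * E := by rw [hAB]; exact mul_eigProj_transpose hER o c
  let C : Matrix (Fin m) (Fin m) ℂ := Aᵀ * E * A
  have hC : C.det ≠ 0 := by
    have h : C * (B * Ei * Bᵀ) = 1 :=
      calc C * (B * Ei * Bᵀ) = Aᵀ * (E * (A * B)) * Ei * Bᵀ := by simp only [C, Matrix.mul_assoc]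
        _ = Aᵀ * ((A * B)ᵀ * E) * Ei * Bᵀ := by rw [hEP]
        _ = Aᵀ * (A * B)ᵀ * (E * Ei) * Bᵀ := by simp only [Matrix.mul_assoc]
        _ = (B * (A * B) * A)ᵀ := by
          rw [hEi', Matrix.mul_one, Matrix.transpose_mul (B * (A * B)) A,
            Matrix.transpose_mul B (A * B), Matrix.mul_assoc]
        _ = 1 := by rw [← Matrix.mul_assoc B A B, hBA, Matrix.one_mul, hBA, Matrix.transpose_one]
    intro h0
    have := congrArg Matrix.det h
    rw [Matrix.det_mul, h0, zero_mul, Matrix.det_one] at this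
    exact zero_ne_one this
  have hPA : ∀ W, Commute W (ρ y) → W * A = A * (B * W * A) := fun W hW => by
    rw [← Matrix.mul_assoc, ← Matrix.mul_assoc, ← (hcomP W hW).eq, Matrix.mul_assoc W,
      Matrix.mul_assoc A, hBA, Matrix.mul_one]
  let cx : Q →* Q :=
    { toFun := fun q => ⟨x * q * x⁻¹, hxQ q q.2⟩
      map_one' := Subtype.ext (by simp)
      map_mul' := fun p r => Subtype.ext (by simp [mul_assoc]) }
  have hlam : ∀ q, ∃ l : ℂ, (V (cx q))ᵀ * E * V q = l • E := fun q =>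
    exists_smul_of_invariant ρ a hirr hEi hEi' hE fun n => by
      have h1 : V (cx q) * ρ (a n) = ρ (a (MulAut.conjNormal (q : G) n)) * V (cx q) := by
        rw [hVn]
        congr 2
        apply Subtype.ext
        simp [a, cx, MulAut.conjNormal_apply, mul_assoc]
      calc (ρ (a n))ᵀ * ((V (cx q))ᵀ * E * V q) * ρ n
          = (V (cx q) * ρ (a n))ᵀ * E * (V q * ρ n) := by
            rw [Matrix.transpose_mul]; simp only [Matrix.mul_assoc]
        _ = (V (cx q))ᵀ * ((ρ (a (MulAut.conjNormal (q : G) n)))ᵀ * E *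
              ρ (MulAut.conjNormal (q : G) n)) * V q := by
            rw [h1, hVn, Matrix.transpose_mul]; simp only [Matrix.mul_assoc]
        _ = _ := by rw [hE]
  choose l hl using hlam
  have hE0 : E ≠ 0 := Units.ne_zero E₀
  have hlmul : ∀ q r, l (q * r) = l q * l r := fun q r => by
    apply smul_left_injective ℂ hE0
    show l (q * r) • E = (l q * l r) • E
    rw [← hl, map_mul, ← hV, ← hV, Matrix.transpose_mul]
    calc (V (cx r))ᵀ * (V (cx q))ᵀ * E * (V q * V r)
        = (V (cx r))ᵀ * ((V (cx q))ᵀ * E * V q) * V r := by simp only [Matrix.mul_assoc]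
      _ = _ := by rw [hl, Matrix.mul_smul, Matrix.smul_mul, hl, smul_smul]
  have hl1 : l 1 = 1 := by
    apply smul_left_injective ℂ hE0
    show l 1 • E = (1 : ℂ) • E
    rw [← hl, map_one, hV1, Matrix.transpose_one, Matrix.one_mul, Matrix.mul_one, one_smul]
  have hlone : ∀ q, l q = 1 := fun q => by
    have h1 : l q ^ m = 1 := by
      have h := congrArg (fun Z => (Aᵀ * Z * A).det) (hl q)
      have e : Aᵀ * ((V (cx q))ᵀ * E * V q) * A =
          (B * V (cx q) * A)ᵀ * C * (B * V q * A) := by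
        calc Aᵀ * ((V (cx q))ᵀ * E * V q) * A = (V (cx q) * A)ᵀ * E * (V q * A) := by
              rw [Matrix.transpose_mul]; simp only [Matrix.mul_assoc]
          _ = _ := by
            rw [hPA _ (hVy q), hPA _ (hVy (cx q)), Matrix.transpose_mul]
            simp only [C, Matrix.mul_assoc]
      rw [e, Matrix.mul_smul, Matrix.smul_mul, Matrix.det_smul, Fintype.card_fin, Matrix.det_mul,
        Matrix.det_mul, Matrix.det_transpose] at h
      have h3 : (1 : ℂ) * C.det * 1 = l q ^ m * C.det := by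
        have e1 := hVD q
        have e2 := hVD (cx q)
        simp only [D] at e1 e2
        rw [e1, e2] at h
        exact h
      rw [one_mul, mul_one] at h3
      exact mul_left_eq_self₀.1 h3.symm |>.resolve_right hC
    let lh : Q →* ℂ := { toFun := l, map_one' := hl1, map_mul' := hlmul }
    have h2 : l q ^ (2 ^ k) = 1 := by
      show lh q ^ (2 ^ k) = 1
      rw [← map_pow, ← hk, pow_card_eq_one', map_one]
    have h4 := pow_gcd_eq_one.2 ⟨h2, h1⟩
    rwa [((Nat.coprime_two_left.2 hm).pow_left k).gcd_eq_one, pow_one] at h4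
  -- the form is symmetric up to the square of x
  set q0 : Q := ⟨x * x, hx2⟩
  obtain ⟨ε, hε⟩ := exists_smul_of_invariant ρ a hirr hEi hEi' hE (Z := Eᵀ * V q0) fun n => by
    have h1 : a (a n) = MulAut.conjNormal (q0 : G) n := by
      show MulAut.conjNormal x (MulAut.conjNormal x n) = _
      rw [← MulAut.mul_apply, ← map_mul]
    have h2 := congrArg Matrix.transpose (hE (a n))
    rw [Matrix.transpose_mul, Matrix.transpose_mul, Matrix.transpose_transpose, h1] at h2
    calc (ρ (a n))ᵀ * (Eᵀ * V q0) * ρ n = (ρ (a n))ᵀ * Eᵀ * (V q0 * ρ n) := by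
          simp only [Matrix.mul_assoc]
      _ = ((ρ (a n))ᵀ * (Eᵀ * ρ (MulAut.conjNormal (q0 : G) n))) * V q0 := by
          rw [hVn]; simp only [Matrix.mul_assoc]
      _ = _ := by rw [h2]
  have hcq0 : cx q0 = q0 := Subtype.ext (by simp [cx, q0, mul_assoc])
  have hε2 : ε ^ 2 = 1 := by
    have h1 : (V q0)ᵀ * E * V q0 = E := by
      conv_lhs => arg 1; arg 1; rw [← hcq0]
      rw [hl, hlone, one_smul]
    have h2 : (V q0)ᵀ * E = ε • Eᵀ := by
      have := congrArg Matrix.transpose hε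
      rwa [Matrix.transpose_mul, Matrix.transpose_transpose, Matrix.transpose_smul] at this
    rw [h2, smul_mul_assoc, hε, smul_smul, ← sq] at h1
    exact smul_left_injective ℂ hE0 (by simp [h1])
  have hεm : ε ^ m = 1 := by
    have h := congrArg (fun Z => (Aᵀ * Z * A).det) hε
    have e : Aᵀ * (Eᵀ * V q0) * A = Cᵀ * (B * V q0 * A) := by
      calc Aᵀ * (Eᵀ * V q0) * A = Aᵀ * Eᵀ * (V q0 * A) := by simp only [Matrix.mul_assoc]
        _ = _ := by
          rw [hPA _ (hVy q0)]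
          simp only [C, Matrix.transpose_mul, Matrix.transpose_transpose, Matrix.mul_assoc]
    rw [e, Matrix.mul_smul, Matrix.smul_mul, Matrix.det_smul, Fintype.card_fin, Matrix.det_mul,
      Matrix.det_transpose] at h
    have e1 := hVD q0
    simp only [D] at e1
    rw [e1, mul_one] at h
    exact mul_left_eq_self₀.1 h.symm |>.resolve_right hC
  have hε1 : ε = 1 := by
    obtain ⟨r, hr⟩ := hm
    rw [hr, pow_succ, pow_mul, hε2, one_pow, one_mul] at hεm
    exact hεm
  rw [hε1, one_smul] at hε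
  -- invariance under T
  have hxT : ∀ t : T, x * (t : G) * x⁻¹ ∈ T := fun t => by
    rw [hfe t t.2, show x * ((fn t t.2 : G) * fq t t.2) * x⁻¹ =
      (a (fn t t.2) : G) * (x * fq t t.2 * x⁻¹) by simp [a, MulAut.conjNormal_apply, mul_assoc]]
    exact T.mul_mem (hNT (SetLike.coe_mem _)) (hQle (hxQ _ (hfq t t.2)))
  have hinv : ∀ t : T, (σ ⟨x * t * x⁻¹, hxT t⟩)ᵀ * E * σ t = E := fun t => by
    let q : Q := ⟨fq t t.2, hfq t t.2⟩
    have h1 : σ t = ρ (fn t t.2) * V q := hσ t _ _ (hfe t t.2)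
    have h2 : σ ⟨x * t * x⁻¹, hxT t⟩ = ρ (a (fn t t.2)) * V (cx q) := by
      refine hσ _ _ _ ?_
      show x * (t : G) * x⁻¹ = _
      conv_lhs => rw [hfe t t.2]
      simp [a, cx, q, MulAut.conjNormal_apply, mul_assoc]
    rw [h1, h2, Matrix.transpose_mul]
    calc (V (cx q))ᵀ * (ρ (a (fn t t.2)))ᵀ * E * (ρ (fn t t.2) * V q)
        = (V (cx q))ᵀ * ((ρ (a (fn t t.2)))ᵀ * E * ρ (fn t t.2)) * V q := by
          simp only [Matrix.mul_assoc]
      _ = E := by rw [hE, hl, hlone, one_smul]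
  refine ⟨fun t => (σ t).trace, hη, fun n => by
    show (σ _).trace = _
    rw [hσN, hρ], fun g hg => ?_⟩
  let ag : N →* N := (MulAut.conjNormal g : MulAut N).toMonoidHom
  have hterm : ∀ n : N, extendByZero T (fun t => (σ t).trace) (g * n * (g * n)) =
      (ρ (ag n) * σ ⟨g * g, hg⟩ * ρ n).trace := fun n => by
    have e : g * (n : G) * (g * n) =
        ((⟨_, hNT (ag n).2⟩ * ⟨g * g, hg⟩ * ⟨(n : G), hNT n.2⟩ : T) : G) := by
      simp [ag, MulAut.conjNormal_apply, mul_assoc]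
    rw [e, extendByZero_coe, map_mul, map_mul, hσN, hσN]
  rw [Finset.sum_congr rfl fun n _ => hterm n]
  split_ifs with hgφ
  · have ht0 : x⁻¹ * g ∈ T := by
      rw [mem_inertia]
      funext n
      show (φ : N → ℂ) (MulAut.conjNormal (x⁻¹ * g) n) = _
      have h3 := hxφ (MulAut.conjNormal x⁻¹ (MulAut.conjNormal g n))⁻¹
      rw [map_inv (MulAut.conjNormal x), ← MulAut.mul_apply, ← map_mul, mul_inv_cancel, map_one,
        MulAut.one_apply, inv_inv] at h3
      rw [map_mul, MulAut.mul_apply, ← h3, ← map_inv (MulAut.conjNormal g), hgφ, inv_inv]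
    set t0 : T := ⟨x⁻¹ * g, ht0⟩
    let Eg := E * σ t0
    let Egi := σ t0⁻¹ * Ei
    have hEg : Egi * Eg = 1 := by
      simp only [Eg, Egi]
      rw [Matrix.mul_assoc, ← Matrix.mul_assoc Ei, hEi, Matrix.one_mul, ← map_mul, inv_mul_cancel,
        map_one]
    have hEg' : Eg * Egi = 1 := mul_eq_one_comm.1 hEg
    have hag : ∀ n, ag n = a (MulAut.conjNormal (t0 : G) n) := fun n => by
      show MulAut.conjNormal g n = MulAut.conjNormal x (MulAut.conjNormal (x⁻¹ * g) n)
      rw [← MulAut.mul_apply, ← map_mul, mul_inv_cancel_left]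
    have hEginv : ∀ n, (ρ (ag n))ᵀ * Eg * ρ n = Eg := fun n => by
      have h1 : σ t0 * ρ n = ρ (MulAut.conjNormal (t0 : G) n) * σ t0 := by
        rw [← hσN n, ← hσN (MulAut.conjNormal (t0 : G) n), ← map_mul, ← map_mul]
        congr 1
        apply Subtype.ext
        simp [MulAut.conjNormal_apply, mul_assoc]
      simp only [Eg]
      rw [← Matrix.mul_assoc, Matrix.mul_assoc _ (σ t0), h1, ← Matrix.mul_assoc, hag n, hE]
    have hsum := twisted_sum ρ ag hirr hEg hEg' hEginv (σ ⟨g * g, hg⟩)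
    have hkey : Egᵀ * σ ⟨g * g, hg⟩ = Eg := by
      have e : (⟨g * g, hg⟩ : T) = ⟨x * t0 * x⁻¹, hxT t0⟩ * ⟨q0, hQle q0.2⟩ * t0 :=
        Subtype.ext (by simp [t0, q0, mul_assoc])
      have h1 := congrArg Matrix.transpose (hinv t0)
      rw [Matrix.transpose_mul, Matrix.transpose_mul, Matrix.transpose_transpose] at h1
      rw [e, map_mul, map_mul, hσQ]
      simp only [Eg, Matrix.transpose_mul]
      calc (σ t0)ᵀ * Eᵀ * (σ ⟨x * t0 * x⁻¹, hxT t0⟩ * V q0 * σ t0)
          = ((σ t0)ᵀ * (Eᵀ * σ ⟨x * t0 * x⁻¹, hxT t0⟩)) * V q0 * σ t0 := by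
            simp only [Matrix.mul_assoc]
        _ = E * σ t0 := by rw [h1, hε]
    rw [hkey, hEg', Matrix.trace_one, Fintype.card_fin] at hsum
    have := mul_left_cancel₀ hd (hsum.trans (mul_comm _ _))
    rw [this, Nat.card_eq_fintype_card]
  · refine twisted_sum_zero ρ ag hirr ?_ _
    by_contra hall
    push Not at hall
    exact hgφ fun n => by rw [← hρ, ← hρ]; exact hall n

end Cfsg.Agent.Lib.GowReal
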