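import Mathlib.LinearAlgebra.Matrix.ToLin
import Mathlib.LinearAlgebra.Matrix.NonsingularInverse
import Mathlib.LinearAlgebra.Dimension.Finrank
import Mathlib.Analysis.Complex.Polynomial.Basic
import Mathlib.RingTheory.RootsOfUnity.Complex

/-!
# Idempotent matrices, compressions and eigenprojections of a matrix of finite order
-/

set_option autoImplicit false

open Matrix

namespace Cfsg.Agent.Lib.GowReal

variable {d : ℕ}

/-- An idempotent matrix factors through its rank. -/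
theorem exists_factor {P : Matrix (Fin d) (Fin d) ℂ} (hP : P * P = P) :
    ∃ (m : ℕ) (A : Matrix (Fin d) (Fin m) ℂ) (B : Matrix (Fin m) (Fin d) ℂ),
      A * B = P ∧ B * A = 1 ∧ P.trace = m := by
  classical
  let f : (Fin d → ℂ) →ₗ[ℂ] (Fin d → ℂ) := Matrix.toLin' P
  let e : LinearMap.range f ≃ₗ[ℂ] (Fin (Module.finrank ℂ (LinearMap.range f)) → ℂ) :=
    (Module.finBasis ℂ (LinearMap.range f)).equivFun
  let a := (LinearMap.range f).subtype ∘ₗ e.symm.toLinearMap
  let b := e.toLinearMap ∘ₗ f.rangeRestrict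
  have hab : a ∘ₗ b = f := LinearMap.ext fun v => by simp [a, b]
  have hba : b ∘ₗ a = LinearMap.id := LinearMap.ext fun v => by
    have h : f.rangeRestrict (e.symm v).1 = e.symm v := by
      obtain ⟨w, hw⟩ := (e.symm v).2
      apply Subtype.ext
      show f (e.symm v).1 = (e.symm v).1
      rw [← hw]
      show (f ∘ₗ f) w = f w
      rw [← Matrix.toLin'_mul, hP]
    simp [a, b, h]
  refine ⟨_, LinearMap.toMatrix' a, LinearMap.toMatrix' b, ?_, ?_, ?_⟩
  · rw [← LinearMap.toMatrix'_comp, hab, LinearMap.toMatrix'_toLin']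
  · rw [← LinearMap.toMatrix'_comp, hba, LinearMap.toMatrix'_id]
  · conv_lhs => rw [← LinearMap.toMatrix'_toLin' P]
    show (LinearMap.toMatrix' f).trace = _
    conv_lhs =>
      rw [← hab, LinearMap.toMatrix'_comp, Matrix.trace_mul_comm, ← LinearMap.toMatrix'_comp, hba,
        LinearMap.toMatrix'_id, Matrix.trace_one, Fintype.card_fin]

/-- The projection of a matrix `R` with `R ^ o = 1` to an eigenspace. -/
noncomputable def eigProj (R : Matrix (Fin d) (Fin d) ℂ) (o : ℕ) (c : ℂ) :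
    Matrix (Fin d) (Fin d) ℂ :=
  (o : ℂ)⁻¹ • ∑ j ∈ Finset.range o, c ^ j • R ^ j

theorem commute_eigProj {R U : Matrix (Fin d) (Fin d) ℂ} (h : Commute U R) (o : ℕ) (c : ℂ) :
    Commute U (eigProj R o c) := by
  refine Commute.smul_right ?_ _
  exact Commute.sum_right _ _ _ fun j _ => (h.pow_right j).smul_right _

theorem mul_eigProj_transpose {R E : Matrix (Fin d) (Fin d) ℂ} (h : E * R = Rᵀ * E) (o : ℕ) (c : ℂ) :
    E * eigProj R o c = (eigProj R o c)ᵀ * E := by
  have hp : ∀ j, E * R ^ j = (R ^ j)ᵀ * E := by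
    intro j
    induction j with
    | zero => simp
    | succ j ih =>
      rw [pow_succ, ← mul_assoc, ih, mul_assoc, h, ← mul_assoc, ← Matrix.transpose_mul,
        ← pow_succ', ← pow_succ]
  simp [eigProj, Matrix.transpose_sum, Matrix.sum_mul, Matrix.mul_sum, hp]

theorem smul_mul_eigProj {R : Matrix (Fin d) (Fin d) ℂ} {o : ℕ} {c : ℂ} (hR : R ^ o = 1)
    (hc : c ^ o = 1) : (c • R) * eigProj R o c = eigProj R o c := by
  simp only [eigProj, mul_smul_comm, Finset.mul_sum]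
  congr 1
  have h : ∀ j, c ^ j • ((c • R) * R ^ j) = c ^ (j + 1) • R ^ (j + 1) := fun j => by
    rw [smul_mul_assoc, smul_smul, pow_succ, pow_succ']
  simp only [h]
  have h1 := Finset.sum_range_succ' (fun j => c ^ j • R ^ j) o
  rw [Finset.sum_range_succ, hR, hc] at h1
  simp only [pow_zero, one_smul] at h1
  exact (add_right_cancel h1).symm

theorem smul_pow_mul_eigProj {R : Matrix (Fin d) (Fin d) ℂ} {o : ℕ} {c : ℂ} (hR : R ^ o = 1)
    (hc : c ^ o = 1) (j : ℕ) : (c • R) ^ j * eigProj R o c = eigProj R o c := by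
  induction j with
  | zero => simp
  | succ j ih => rw [pow_succ, mul_assoc, smul_mul_eigProj hR hc, ih]

theorem eigProj_idem {R : Matrix (Fin d) (Fin d) ℂ} {o : ℕ} {c : ℂ} (ho : o ≠ 0) (hR : R ^ o = 1)
    (hc : c ^ o = 1) : eigProj R o c * eigProj R o c = eigProj R o c := by
  conv_lhs => arg 1; rw [eigProj]
  rw [smul_mul_assoc, Finset.sum_mul]
  have h : ∀ j, (c ^ j • R ^ j) * eigProj R o c = eigProj R o c := fun j => by
    rw [← smul_pow]; exact smul_pow_mul_eigProj hR hc j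
  simp only [h, Finset.sum_const, Finset.card_range]
  rw [← Nat.cast_smul_eq_nsmul ℂ, smul_smul, inv_mul_cancel₀ (Nat.cast_ne_zero.2 ho), one_smul]

theorem sum_eigProj {R : Matrix (Fin d) (Fin d) ℂ} {o : ℕ} {ζ : ℂ} (hζ : IsPrimitiveRoot ζ o)
    (ho : o ≠ 0) : ∑ i ∈ Finset.range o, eigProj R o (ζ ^ i) = 1 := by
  simp only [eigProj, ← Finset.smul_sum]
  rw [Finset.sum_comm]
  have h : ∀ j ∈ Finset.range o, ∑ i ∈ Finset.range o, (ζ ^ i) ^ j • R ^ j =
      if j = 0 then (o : ℂ) • (1 : Matrix (Fin d) (Fin d) ℂ) else 0 := by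
    intro j hj
    rw [← Finset.sum_smul]
    have e : ∀ i, (ζ ^ i) ^ j = (ζ ^ j) ^ i := fun i => by rw [← pow_mul, ← pow_mul, mul_comm]
    simp only [e]
    rcases eq_or_ne j 0 with rfl | hj0
    · simp
    · rw [if_neg hj0, geom_sum_eq (hζ.pow_ne_one_of_pos_of_lt hj0 (Finset.mem_range.1 hj)),
        ← pow_mul, mul_comm, pow_mul, hζ.pow_eq_one, one_pow, sub_self, zero_div, zero_smul]
  rw [Finset.sum_congr rfl h, Finset.sum_ite_eq', if_pos (Finset.mem_range.2 (Nat.pos_of_ne_zero ho)),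
    smul_smul, inv_mul_cancel₀ (Nat.cast_ne_zero.2 ho), one_smul]

/-- If the trace of the inverse of a matrix of finite order is not divisible by two among the
algebraic integers, some eigenspace has odd dimension. -/
theorem exists_odd_eigProj {R : Matrix (Fin d) (Fin d) ℂ} {o : ℕ} (ho : o ≠ 0) (hR : R ^ o = 1)
    (h : ¬ IsIntegral ℤ ((R ^ (o - 1)).trace / 2)) :
    ∃ c : ℂ, c ^ o = 1 ∧ ∃ (m : ℕ) (A : Matrix (Fin d) (Fin m) ℂ) (B : Matrix (Fin m) (Fin d) ℂ),
      A * B = eigProj R o c ∧ B * A = 1 ∧ Odd m := by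
  classical
  obtain ⟨ζ, hζ⟩ : ∃ ζ : ℂ, IsPrimitiveRoot ζ o := ⟨_, Complex.isPrimitiveRoot_exp o ho⟩
  by_contra hall
  apply h
  have hc : ∀ i : ℕ, (ζ ^ i) ^ o = 1 := fun i => by
    rw [← pow_mul, mul_comm, pow_mul, hζ.pow_eq_one, one_pow]
  have hev : ∀ i : ℕ, ∃ k : ℕ, (eigProj R o (ζ ^ i)).trace = 2 * k := by
    intro i
    obtain ⟨m, A, B, h1, h2, h3⟩ := exists_factor (eigProj_idem ho hR (hc i))
    rcases Nat.even_or_odd m with ⟨k, hk⟩ | hm
    · exact ⟨k, by rw [h3, hk]; push_cast; ring⟩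
    · exact (hall ⟨_, hc i, m, A, B, h1, h2, hm⟩).elim
  choose k hk using hev
  have hinv : ∀ i, R ^ (o - 1) * eigProj R o (ζ ^ i) = (ζ ^ i) • eigProj R o (ζ ^ i) := by
    intro i
    conv_lhs => arg 2; rw [← smul_mul_eigProj hR (hc i)]
    rw [smul_mul_assoc, mul_smul_comm, ← mul_assoc, ← pow_succ,
      Nat.sub_add_cancel (Nat.pos_of_ne_zero ho), hR, one_mul]
  have htr : (R ^ (o - 1)).trace = ∑ i ∈ Finset.range o, ζ ^ i * (2 * k i) := by
    conv_lhs => rw [← mul_one (R ^ (o - 1)), ← sum_eigProj (R := R) hζ ho, Finset.mul_sum]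
    rw [Matrix.trace_sum]
    exact Finset.sum_congr rfl fun i _ => by rw [hinv, Matrix.trace_smul, hk, smul_eq_mul]
  rw [htr, Finset.sum_div]
  refine IsIntegral.sum _ fun i _ => ?_
  rw [show ζ ^ i * (2 * (k i : ℂ)) / 2 = ζ ^ i * (k i : ℂ) by ring]
  exact ((IsIntegral.of_pow (Nat.pos_of_ne_zero ho) (hζ.pow_eq_one.symm ▸ isIntegral_one) : IsIntegral ℤ ζ).pow i).mul (isIntegral_algebraMap (R := ℤ) (x := (k i : ℤ)))

variable {m : ℕ}

/-- Compression is multiplicative on matrices commuting with the projection. -/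
theorem compress_mul {A : Matrix (Fin d) (Fin m) ℂ} {B : Matrix (Fin m) (Fin d) ℂ} (hBA : B * A = 1)
    {U V : Matrix (Fin d) (Fin d) ℂ} (hV : Commute V (A * B)) :
    B * (U * V) * A = (B * U * A) * (B * V * A) := by
  have h : A * B * V * A = V * A := by
    rw [← hV.eq, Matrix.mul_assoc V, Matrix.mul_assoc A, hBA, Matrix.mul_one]
  calc B * (U * V) * A = B * U * (V * A) := by simp only [Matrix.mul_assoc]
    _ = B * U * (A * B * V * A) := by rw [h]
    _ = _ := by simp only [Matrix.mul_assoc]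

theorem compress_smul {A : Matrix (Fin d) (Fin m) ℂ} {B : Matrix (Fin m) (Fin d) ℂ}
    (s : ℂ) (U : Matrix (Fin d) (Fin d) ℂ) : B * (s • U) * A = s • (B * U * A) := by
  rw [Matrix.mul_smul, Matrix.smul_mul]

end Cfsg.Agent.Lib.GowReal
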